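import Cfsg.Agent.E7P.J1v.Vec
import Cfsg.Agent.E7P.Lie.AJor
import Cfsg.Agent.R2.T1.Mu2.Line

/-!
# S5932, tasks NF3 and ANN3 (helper82)

* `Jv.two_dim` : `PSL₂(K)` has no non-trivial representation of dimension at most 2 in odd characteristic;
* `Jv.kempf3` : the optimal pair of an element of cube zero;
* `Sit.jv_nf_nil`, `Sit.jv_ann_nil` : no nilpotent elements in `g^A`, in the annihilator of a stable subspace (`p = 3`);
* `Sit.nofix3`, `Sit.ann3` from `Sit.JvNFT`.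
-/

set_option autoImplicit false
set_option maxRecDepth 100000

namespace Cfsg.Agent.E7P

open Cfsg Cfsg.Lie Matrix Module
open Cfsg.Agent.H943.E7V.Block (D1 rho)
open Cfsg.Agent.R2.T1 Cfsg.Agent.E7P.Kf Cfsg.Agent.E7P.Br
open Cfsg.Agent.R2.PX (del)
open Cfsg.Agent.R2.H9.E6 (pq)
open Cfsg.Agent.H943.SL2Rel (u w h)
open Cfsg.Agent.ChevalleyStructure.RootVec (rt)

universe u v

namespace Jv

/-- `SL₂` is generated by the unipotent elements and the Weyl element -/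
theorem gen_uw {K : Type*} [Field K] {P : SpecialLinearGroup (Fin 2) K → Prop} (hu : ∀ t, P (u t)) (hw : P w)
    (hm : ∀ a b, P a → P b → P (a * b)) (g : SpecialLinearGroup (Fin 2) K) : P g := by
  refine H943.SL2Rel.induct hu (fun a => ?_) hw hm g
  have h0 : -(a : K)⁻¹ ≠ 0 := neg_ne_zero.2 (inv_ne_zero a.ne_zero)
  have h1 := H943.SL2Rel.w_u_w _ h0
  have h2 : H943.SL2Rel.mi _ h0 = a := Units.ext (by simp [H943.SL2Rel.mi])
  have h3 : (w : SpecialLinearGroup (Fin 2) K)⁻¹ = w * w * w := by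
    rw [inv_eq_iff_mul_eq_one, ← mul_assoc, ← mul_assoc, mul_assoc (w * w), H943.SL2Rel.w_w, ← H943.SL2Rel.h_mul, neg_mul_neg,
      one_mul, H943.SL2Rel.h_one]
  have h4 : h a = u (- -(-(a : K)⁻¹)⁻¹) * (w * u (-(a : K)⁻¹) * w) * u (- -(-(a : K)⁻¹)⁻¹) * (w * w * w) := by
    rw [h1, h2, H943.SL2Rel.u_neg, ← h3]
    group
  rw [h4]
  exact hm _ _ (hm _ _ (hm _ _ (hu _) (hm _ _ (hm _ _ hw (hu _)) hw)) (hu _)) (hm _ _ (hm _ _ hw hw) hw)

theorem inv_two {k M : Type*} [Field k] [AddCommGroup M] [Module k M] [FiniteDimensional k M] (h2 : (2 : k) ≠ 0)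
    (hd : finrank k M ≤ 2) {T : Module.End k M} (hT : T * T = 1) (h1 : LinearMap.det T = 1) : T = 1 ∨ T = -1 := by
  by_contra hc
  obtain ⟨hc1, hc2⟩ := not_or.1 hc
  obtain ⟨x, hx⟩ := DFunLike.ne_iff.1 hc1
  obtain ⟨y, hy⟩ := DFunLike.ne_iff.1 hc2
  have e : ∀ x, T (T x) = x := fun x => DFunLike.congr_fun hT x
  have ha : T (T x - x) = (-1 : k) • (T x - x) := by rw [map_sub, e, neg_one_smul, neg_sub]
  have hb : T (T y + y) = T y + y := by rw [map_add, e, add_comm]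
  have ha0 : T x - x ≠ 0 := sub_ne_zero.2 hx
  have hb0 : T y + y ≠ 0 := fun h => hy (eq_neg_of_add_eq_zero_left h)
  generalize T x - x = a at ha ha0
  generalize T y + y = b at hb hb0
  have hl : LinearIndependent k ![a, b] := LinearIndependent.pair_iff.2 fun s t hst => by
    have h3 := congrArg T hst
    rw [map_add, map_smul, map_smul, ha, hb, map_zero] at h3
    have h4 : (2 * t) • b = 0 := by
      have h4 : s • a + t • b + (s • (-1 : k) • a + t • b) = (2 * t) • b := by module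
      rw [← h4, hst, h3, add_zero]
    have h5 : t = 0 := (mul_eq_zero.1 ((smul_eq_zero.1 h4).resolve_right hb0)).resolve_left h2
    rw [h5, zero_smul, add_zero] at hst
    exact ⟨(smul_eq_zero.1 hst).resolve_right ha0, h5⟩
  have hcard : Fintype.card (Fin 2) = finrank k M := le_antisymm hl.fintype_card_le_finrank (by rwa [Fintype.card_fin])
  let B := basisOfLinearIndependentOfCardEqFinrank hl hcard
  have hB0 : B 0 = a := by simp [B]
  have hB1 : B 1 = b := by simp [B]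
  rw [← LinearMap.det_toMatrix B, det_fin_two] at h1
  simp only [LinearMap.toMatrix_apply] at h1
  rw [hB0, hB1, ha, hb, ← hB0, ← hB1] at h1
  simp at h1
  exact h2 (by linear_combination -h1)

theorem triv_of_comm {G N : Type*} [Group G] [Monoid N] (hp : commutator G = ⊤) (f : G →* N)
    (hf : ∀ a b, f a * f b = f b * f a) (x : G) : f x = 1 := by
  have h1 : commutator G ≤ f.ker := Subgroup.commutator_le.2 fun a _ b _ => by
    rw [MonoidHom.mem_ker, commutatorElement_def, map_mul, map_mul, map_mul, hf a b, mul_assoc (f b), ← map_mul,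
      mul_inv_cancel, map_one, mul_one, ← map_mul, mul_inv_cancel, map_one]
  rw [hp] at h1
  exact h1 (Subgroup.mem_top x)

/-- **representations of dimension at most 2** -/
theorem two_dim {K k : Type*} [Field K] [Field k] (h2 : (2 : k) ≠ 0)
    (hp : commutator (SpecialLinearGroup (Fin 2) K) = ⊤) {I : Type*} [Fintype I] [DecidableEq I]
    (R : SpecialLinearGroup (Fin 2) K →* Matrix I I k) (hw : R w * R w = 1) {W : Submodule k (I → k)}
    (hd : finrank k W ≤ 2) (hW : ∀ x, ∀ y ∈ W, R x *ᵥ y ∈ W) (x : SpecialLinearGroup (Fin 2) K) {y : I → k} (hy : y ∈ W) :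
    R x *ᵥ y = y := by
  let ρ : SpecialLinearGroup (Fin 2) K →* Module.End k W :=
    { toFun := fun x => (toLin' (R x)).restrict (hW x)
      map_one' := LinearMap.ext fun y => Subtype.ext (by
        show R 1 *ᵥ y.1 = y.1
        rw [map_one, one_mulVec])
      map_mul' := fun a b => LinearMap.ext fun y => Subtype.ext (by
        show R (a * b) *ᵥ y.1 = R a *ᵥ (R b *ᵥ y.1)
        rw [map_mul, mulVec_mulVec]) }
  have h1 : ρ w * ρ w = 1 := LinearMap.ext fun y => Subtype.ext (by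
    show R w *ᵥ (R w *ᵥ y.1) = y.1
    rw [mulVec_mulVec, hw, one_mulVec])
  have h3 : ∀ A, Commute (ρ w) A := fun A => by
    rcases inv_two h2 hd h1 (triv_of_comm hp (LinearMap.det.comp ρ) (fun _ _ => mul_comm _ _) w) with h | h <;> rw [h]
    · exact Commute.one_left A
    · exact LinearMap.ext fun y => (map_neg A y).symm
  have h4 : ∀ s a, Commute (ρ a) (ρ (u s)) := fun s => gen_uw
    (fun t => by rw [Commute, SemiconjBy, ← map_mul, ← map_mul, ← H943.SL2Rel.u_add, ← H943.SL2Rel.u_add, add_comm])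
    (h3 _) fun a b ha hb => by rw [map_mul]; exact ha.mul_left hb
  have h5 : ∀ b a, Commute (ρ a) (ρ b) := fun b => gen_uw (fun t => (h4 t b).symm) (h3 _)
    fun a a' ha ha' => by rw [map_mul]; exact ha.mul_left ha'
  exact congrArg Subtype.val (DFunLike.congr_fun (triv_of_comm hp ρ (fun a b => h5 b a) x) ⟨y, hy⟩)

variable {K : Type u} [Field K]

theorem chk_top : ∀ r < 126, ∀ j < 7, rt chevE7 r j ≤ rt chevE7 125 j := by decide +kernel

/-- the highest root has the highest level -/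
theorem le_top {β : E} (hβ : Dom β) {r : ℕ} (hr : r < 126) : bf β (rv r) ≤ bf β (rv 125) := by
  rw [bf_rv _ hr, bf_rv _ (by norm_num)]
  exact Finset.sum_le_sum fun j _ => mul_le_mul_of_nonneg_left (by exact_mod_cast chk_top r hr j j.2) (hβ j)

theorem bf_top (β : E) : bf β (rv 125) = 2 * β 0 + 2 * β 1 + 3 * β 2 + 4 * β 3 + 3 * β 4 + 2 * β 5 + β 6 := by
  have h : ∀ j : Fin 7, rt chevE7 125 j = ![2, 2, 3, 4, 3, 2, 1] j := by decide +kernel
  rw [bf_rv _ (by norm_num)]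
  simp only [h, Fin.sum_univ_seven]
  simp
  ring

theorem bf_topv (β : E) : bf β (wv topv) =
    β 0 + 3 / 2 * β 1 + 2 * β 2 + 3 * β 3 + 5 / 2 * β 4 + 2 * β 5 + 3 / 2 * β 6 := by
  have h : ∀ j : Fin 7, wc topv j = ![0, 0, 0, 0, 0, 0, 1] j := by decide +kernel
  rw [bf_expl]
  simp only [wv, cv, h]
  simp
  ring

/-- **the optimal pair of an element of cube zero** -/
theorem kempf3 [IsAlgClosed K] (h2 : (2 : K) ≠ 0) (h3 : (3 : K) = 0) {C : Set (chevE7.Idx → K)}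
    (hC : ∀ z ∈ C, ∀ w, del K w = del K z * del K z * del K z → w ∈ C) {z : chevE7.Idx → K} (hz : z ∈ C) (h0 : z ≠ 0)
    (hn : IsNilpotent (del K z)) : ∃ y ∈ C, y ≠ 0 ∧ ∃ (g : Gh K) (β : E), 0 < bf β β ∧ Dom β ∧
      Opt bf (St ac (adM K) {y}) g β ∧ (∀ x, adM K x *ᵥ y = y → g⁻¹ * x * g ∈ Pl K β) ∧
      ∀ a, bf β (wv a) ≤ 2 * bf β β := by
  obtain ⟨y, hy, hy0, e⟩ := Lb.exists_cube_zero h3 hC hz h0 hn
  rw [← pow_three'] at e
  obtain ⟨g0, z0, h4, h5⟩ := La.nil (La.eqv h2) (z := y) ⟨3, e⟩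
  obtain ⟨g, β, h6, h7, ho, h8, -⟩ := wrep_L.kempf (X := {y}) ⟨⟨y, rfl, hy0⟩, g0, rho1, fun v hv i hi => by
    rw [hv, h5, mulVec_inv] at hi
    exact h4 i hi⟩
  refine ⟨y, hy, hy0, g, β, bf_pd.pos _ h6, h7, ho, fun x hx => h8 x fun v hv => ?_, fun a => ?_⟩
  · have h9 := mulVec_inv (adM K) x y
    rw [hx] at h9
    rw [hv]
    exact h9
  · exact_mod_cast lev_le h2 ho h7 (m := 2) e a

theorem xs_pow {p : ℕ} [CharP K p] (r : ℕ) (t : K) : xs K r t ^ p = 1 := by
  have h1 : ∀ n : ℕ, xs K r t ^ n = xs K r (n * t) := fun n => by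
    induction n with
    | zero => rw [pow_zero, Nat.cast_zero, zero_mul, xs_zero]
    | succ n ih => rw [pow_succ, ih, xs_mul, Nat.cast_succ, add_mul, one_mul]
  rw [h1, CharP.cast_eq_zero, zero_mul, xs_zero]

theorem xs_ne {r : ℕ} (hr : r < 126) : xs K r 1 ≠ 1 := fun h => by
  have h1 := rho_xs' hr (1 : K)
  rw [h, map_one, one_smul, left_eq_add] at h1
  obtain ⟨i, j, h2⟩ := exists_NM_ne (K := K) hr
  exact h2 (by rw [h1]; rfl)

theorem xs_comm (h2 : (2 : K) ≠ 0) {r : ℕ} (hr : r < 126) {g : Gh K}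
    (h : adM K g *ᵥ Pi.single (Sum.inr ⟨r, hr⟩) 1 = Pi.single (Sum.inr ⟨r, hr⟩) 1) (t : K) : g * xs K r t = xs K r t * g := by
  have h1 := R2.PX.del_equi h2 g (Pi.single (Sum.inr ⟨r, hr⟩) 1)
  rw [h, R2.PX.del_inr] at h1
  apply rho_injective
  rw [map_mul, map_mul, rho_xs' hr, mul_add, add_mul, mul_one, one_mul, mul_smul_comm, smul_mul_assoc, h1]

/-- the top level of the first and of the third fundamental coweight -/
theorem finrank_top {i : Fin 7} (hi : i = 0 ∨ i = 2) :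
    finrank K (Ge K ac (Pi.single i 1) (bf (Pi.single i 1) (rv 125))) ≤ 2 := by
  classical
  have e : ∀ r < 126, bf (Pi.single i 1) (rv r) = (rt chevE7 r i : ℝ) := fun r hr => by
    rw [bf_rv _ hr, Finset.sum_eq_single i (fun j _ hj => by rw [Pi.single_eq_of_ne hj, zero_mul])
      (fun h => absurd (Finset.mem_univ _) h), Pi.single_eq_same, one_mul]
  have h1 : ∀ r < 126, (rt chevE7 125 0 ≤ rt chevE7 r 0 ∨ rt chevE7 125 2 ≤ rt chevE7 r 2) → r = 124 ∨ r = 125 := by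
    decide +kernel
  let a : chevE7.Idx := Sum.inr ⟨124, by decide⟩
  let b : chevE7.Idx := Sum.inr ⟨125, by decide⟩
  let f : Ge K ac (Pi.single i 1) (bf (Pi.single i 1) (rv 125)) →ₗ[K] K × K :=
    ((LinearMap.proj a).prod (LinearMap.proj b)) ∘ₗ Submodule.subtype _
  have hf : Function.Injective f := (injective_iff_map_eq_zero f).2 fun x hx => Subtype.ext (funext fun q => by
    by_contra hq
    have h2 := x.2 q hq
    rw [e 125 (by norm_num)] at h2
    rcases q with q | r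
    · rw [ac_inl, cv_zero, map_zero] at h2
      have h3 : (1 : ℝ) ≤ (rt chevE7 125 i : ℝ) := by exact_mod_cast rt_top i i.2
      linarith
    · have h3 : (rt chevE7 125 i : ℝ) ≤ (rt chevE7 r i : ℝ) := h2.trans_eq (e r r.2)
      have h4 : rt chevE7 125 i ≤ rt chevE7 r i := by exact_mod_cast h3
      rcases h1 r r.2 (by rcases hi with rfl | rfl; exacts [Or.inl h4, Or.inr h4]) with h5 | h5
      · exact hq ((congrArg (fun s => x.1 (Sum.inr s)) (Fin.ext h5)).trans (congrArg Prod.fst hx))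
      · exact hq ((congrArg (fun s => x.1 (Sum.inr s)) (Fin.ext h5)).trans (congrArg Prod.snd hx)))
  have h2 := LinearMap.finrank_le_finrank_of_injective hf
  rwa [finrank_prod, finrank_self] at h2

end Jv

namespace Sit

variable {p a b : ℕ} {F : Type u} {K : Type v} {k : Type u} [Field F] [Fintype F] [Field K] [Fintype K] [Field k]
  (S : Sit p a b F K k)

include S in
theorem jv_three (hp : p = 3) : (3 : k) = 0 := by
  have := S.chark
  subst hp
  exact_mod_cast CharP.cast_eq_zero k 3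

theorem jv_adM_ww : adM k (S.ψ (w * w)) = 1 := by
  have h1 : pq (w * w : SpecialLinearGroup (Fin 2) K) = 1 := (QuotientGroup.eq_one_iff _).2
    (Subgroup.mem_center_iff.2 fun g => by
      have e : (w * w : SpecialLinearGroup (Fin 2) K) = -1 := Subtype.ext (by
        rw [H943.SL2Rel.w_w]
        ext i j
        fin_cases i <;> fin_cases j <;> simp [h])
      rw [e, mul_neg, neg_mul, mul_one, one_mul])
  show adM k (emb S.f (S.ψ0 (w * w))) = 1
  rw [adM_emb, adM_apply, S.lift, h1, map_one]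
  exact Matrix.map_one _ (map_zero _) (map_one _)

theorem jv_cent {g c : Gh k} (h : ∀ x, g⁻¹ * S.ψ x * g * c = c * (g⁻¹ * S.ψ x * g)) : S.Cent (g * c * g⁻¹) := fun x => by
  rw [show S.ψ x * (g * c * g⁻¹) = g * (g⁻¹ * S.ψ x * g * c) * g⁻¹ by group, h]
  group

/-- `A` is not contained in the first or the third maximal parabolic subgroup -/
theorem jv_par (hp : p ≠ 2) (hc : S.CK) {i : Fin 7} (hi : i = 0 ∨ i = 2) {g : Gh k}
    (hg : ∀ x, g⁻¹ * S.ψ x * g ∈ Pl k (Pi.single i 1)) : False := by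
  have := S.chark
  have h2 := S.nt_two hp
  have h125 : 125 < 126 := by norm_num
  let R : SpecialLinearGroup (Fin 2) K →* Matrix chevE7.Idx chevE7.Idx k :=
    (adM k).comp ((MulAut.conj g⁻¹).toMonoidHom.comp S.ψ)
  have e : ∀ x, R x = adM k (g⁻¹ * S.ψ x * g) := fun x => by
    show adM k (g⁻¹ * S.ψ x * g⁻¹⁻¹) = _
    rw [inv_inv]
  have h1 : ∀ x, adM k (g⁻¹ * S.ψ x * g) *ᵥ Pi.single (Sum.inr ⟨125, h125⟩) 1 = Pi.single (Sum.inr ⟨125, h125⟩) 1 :=
    fun x => by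
      rw [← e]
      refine Jv.two_dim h2 S.nt_perfect R ?_ (Jv.finrank_top hi) (fun x y hy => ?_) x fun q hq => ?_
      · rw [← map_mul, e, map_mul, map_mul, S.jv_adM_ww, mul_one, ← map_mul, inv_mul_cancel, map_one]
      · rw [e]
        exact wrep_L.Ge_stab (hg x) hy
      · have h3 : q = Sum.inr ⟨125, h125⟩ := by
          by_contra h3
          exact hq (Pi.single_eq_of_ne h3 _)
        rw [h3]
        exact le_rfl
  have h3 := hc _ (S.jv_cent fun x => Jv.xs_comm h2 h125 (h1 x) 1) (by rw [conj_pow, Jv.xs_pow, mul_one, mul_inv_cancel])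
  exact Jv.xs_ne h125 (conj_eq_one_iff.1 h3)

/-- **NF3**, the nilpotent elements -/
theorem jv_nf_nil (hp : p = 3) (hc : S.CK) {z : chevE7.Idx → k} (hz : ∀ x, adM k (S.ψ x) *ᵥ z = z)
    (hn : IsNilpotent (del k z)) : z = 0 := by
  have := S.closed
  have := S.chark
  have hp2 : p ≠ 2 := by omega
  have h2 := S.nt_two hp2
  by_contra h0
  obtain ⟨y, hy, hy0, g, β, hβ0, hβ, ho, hP, hV⟩ := Jv.kempf3 h2 (S.jv_three hp) (C := S.nt_fix (adM k))
    (fun z hz w hw x => Lb.cube_fix h2 hw (hz x)) hz h0 hn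
  have hA : ∀ x, g⁻¹ * S.ψ x * g ∈ Pl k β := fun x => hP _ (hy x)
  have h1 : ∀ i, i = 0 ∨ i = 2 → β i = 0 := fun i hi => by
    by_contra h1
    refine S.jv_par hp2 hc hi fun x => Pl_le_of_supp hβ (fun j => ?_) (fun j hj => ?_) (hA x)
    · by_cases h3 : j = i
      · rw [h3, Pi.single_eq_same]
        exact zero_le_one
      · rw [Pi.single_eq_of_ne h3]
    · exact Pi.single_eq_of_ne (show j ≠ i from fun h3 => h1 (h3 ▸ hj)) _
  have hM : ∀ r < 126, bf β (rv r) < 3 * bf β β := fun r hr => by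
    have h3 := Jv.le_top hβ hr
    have h4 := hV topv
    rw [Jv.bf_top, h1 0 (Or.inl rfl), h1 2 (Or.inr rfl)] at h3
    rw [Jv.bf_topv, h1 0 (Or.inl rfl), h1 2 (Or.inr rfl)] at h4
    have := hβ 4
    have := hβ 5
    have := hβ 6
    linarith
  have h3 := Opt_Ge ho rfl
  obtain ⟨c, hc1⟩ := Lb.exp3 h2 hβ0 h3
  have h4 : c ≠ 1 := hc1.ne_one' hβ0 hM h3 fun h => hy0 (by rw [← mulVec_inv' (adM k) g y, h, mulVec_zero])
  obtain ⟨n, h5, h6⟩ := Lb.exists_pow_p S.prime hc1.1 h4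
  have h7 : ∀ x, Commute (g⁻¹ * S.ψ x * g) c := fun x => hc1.comm h2 hβ0 hM (hA x) (by
    rw [mulVec_mul, mulVec_inv', mulVec_mul, hy x])
  exact h5 (conj_eq_one_iff.1 (hc _ (S.jv_cent fun x => (h7 x).pow_right n) (by rw [conj_pow, h6, mul_one, mul_inv_cancel])))

/-- **ANN3**, the nilpotent elements -/
theorem jv_ann_nil (hp : p = 3) (ht : S.PT (rho k)) {W : Submodule k (D1 → k)} (hW : S.Stb (rho k) W)
    (hA : ∃ x, ∃ y ∈ W, rho k (S.ψ x) *ᵥ y ≠ y) {z : chevE7.Idx → k} (hz : ∀ y ∈ W, del k z *ᵥ y = 0)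
    (hn : IsNilpotent (del k z)) : z = 0 := by
  have := S.closed
  have := S.chark
  have hp2 : p ≠ 2 := by omega
  have h2 := S.nt_two hp2
  by_contra h0
  obtain ⟨y, hy, hy0, g, β, hβ0, hβ, ho, -, hV⟩ := Jv.kempf3 h2 (S.jv_three hp) (C := {z | ∀ y ∈ W, del k z *ᵥ y = 0})
    (fun z hz w hw y hy => by rw [hw, ← mulVec_mulVec, hz y hy, mulVec_zero]) hz h0 hn
  have h1 : ∀ v ∈ W, rho k g⁻¹ *ᵥ v ∈ Ge k wc β 0 := fun v hv => Jv.j1v_ker h2 ho hβ fun x hx => by rw [hx]; exact hy v hv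
  have h3 : ∀ d, 2 * bf β β < d → ∀ v ∈ Ge k wc β d, v = 0 := fun d hd v hv => funext fun i => by
    by_contra hi
    exact absurd ((hv i hi).trans (hV i)) (not_le.2 hd)
  have key : ∀ c : Gh k, (∀ v ∈ W, rho k c *ᵥ (rho k g⁻¹ *ᵥ v) = rho k g⁻¹ *ᵥ v) → c ^ p = 1 → c = 1 := fun c h4 h5 =>
    conj_eq_one_iff.1 (ht W hW hA (g * c * g⁻¹) (fun v hv => by rw [mulVec_mul, mulVec_mul, h4 v hv, mulVec_inv'])
      (by rw [conj_pow, h5, mul_one, mul_inv_cancel]))
  by_cases hM : ∀ r < 126, bf β (rv r) < 3 * bf β β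
  · have h4 := Opt_Ge ho rfl
    obtain ⟨c, hc1⟩ := Lb.exp3 h2 hβ0 h4
    have h5 : c ≠ 1 := hc1.ne_one' hβ0 hM h4 fun h => hy0 (by rw [← mulVec_inv' (adM k) g y, h, mulVec_zero])
    obtain ⟨n, h6, h7⟩ := Lb.exists_pow_p S.prime hc1.1 h5
    refine h6 (key _ (fun v hv => ?_) h7)
    have h8 : rho k c *ᵥ (rho k g⁻¹ *ᵥ v) = rho k g⁻¹ *ᵥ v := sub_eq_zero.1 (h3 _ (by linarith) _
      (hc1.vec (h1 v hv) (by rw [Jv.del_rho h2, hy v hv, mulVec_zero])))
    clear h6 h7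
    induction n with
    | zero => rw [pow_zero, map_one, one_mulVec]
    | succ n ih => rw [pow_succ, mulVec_mul, h8, ih]
  · push Not at hM
    obtain ⟨r, hr, h4⟩ := hM
    refine Jv.xs_ne hr (key _ (fun v hv => ?_) (Jv.xs_pow r 1))
    have h5 : NM k r ∈ MGe k wc β (bf β (rv r)) := fun i j hij => by
      show bf β (wv j) + _ ≤ bf β (wv i)
      rw [NM_ne hr hij, map_add]
    rw [rho_xs' hr, add_mulVec, one_mulVec, one_smul, h3 _ (by linarith) _ (MGe_mulVec h5 (h1 v hv)), add_zero]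

/-- the annihilator of a subspace of `V` in the Lie algebra -/
def jv_ann (W : Submodule k (D1 → k)) : Submodule k (chevE7.Idx → k) where
  carrier := {z | ∀ y ∈ W, del k z *ᵥ y = 0}
  zero_mem' := fun y _ => by rw [map_zero, zero_mulVec]
  add_mem' := fun ha hb y hy => by rw [map_add, add_mulVec, ha y hy, hb y hy, add_zero]
  smul_mem' := fun c _ ha y hy => by rw [map_smul, smul_mulVec, ha y hy, smul_zero]

theorem jv_sv_del (z : chevE7.Idx → k) (y : D1 → k) : S.sv (del k z *ᵥ y) = del k (S.sv z) *ᵥ S.sv y := by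
  funext i
  show S.s ((del k z *ᵥ y) i) = _
  rw [RingHom.map_mulVec, Mu2.del_map]
  rfl

theorem jv_stb_ann (hp : p ≠ 2) {W : Submodule k (D1 → k)} (hW : S.Stb (rho k) W) : S.Stb (adM k) (jv_ann W) := by
  refine ⟨fun m hm z hz y hy => ?_, fun z hz y hy => ?_⟩
  · rw [← mulVec_inv' (rho k) m y, Jv.del_rho (S.nt_two hp), hz _ (hW.1 _ (inv_mem hm) y hy), mulVec_zero]
  · obtain ⟨y', h1, rfl⟩ := S.k_sv_surj (X := W) hW.2 y hy
    refine (S.jv_sv_del z y').symm.trans ?_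
    rw [hz y' h1]
    exact funext fun _ => map_zero _

/-- the statement NFT -/
def JvNFT : Prop := ∀ C : Submodule k (chevE7.Idx → k), S.Stb (adM k) C →
  (∀ x ∈ C, ∀ y ∈ C, ∀ z, del k z = del k x * del k y - del k y * del k x → z ∈ C) →
  (∀ x ∈ C, ∀ s z, La.Jd x s z → s ∈ C ∧ z ∈ C) → (∀ z ∈ C, IsNilpotent (del k z) → z = 0) → C = ⊥

theorem jv_fix_br (hp : p ≠ 2) : ∀ x ∈ S.nt_fix (adM k), ∀ y ∈ S.nt_fix (adM k), ∀ z,
    del k z = del k x * del k y - del k y * del k x → z ∈ S.nt_fix (adM k) := fun x hx y hy z hz g => by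
  rw [Mu.del_injective (hz.trans (del_br x y).symm), adM_br (S.nt_two hp), hx g, hy g]

theorem jv_fix_jd (hp : p ≠ 2) : ∀ x ∈ S.nt_fix (adM k), ∀ s z, La.Jd x s z →
    s ∈ S.nt_fix (adM k) ∧ z ∈ S.nt_fix (adM k) := fun _ hx _ _ h =>
  ⟨fun g => (h.fix (La.eqv (S.nt_two hp)) (hx g)).1, fun g => (h.fix (La.eqv (S.nt_two hp)) (hx g)).2⟩

theorem jv_ann_br (W : Submodule k (D1 → k)) : ∀ x ∈ jv_ann W, ∀ y ∈ jv_ann W, ∀ z,
    del k z = del k x * del k y - del k y * del k x → z ∈ jv_ann W := fun x hx y hy z hz v hv => by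
  rw [hz, sub_mulVec, ← mulVec_mulVec, ← mulVec_mulVec, hx v hv, hy v hv, mulVec_zero, mulVec_zero, sub_self]

theorem jv_ann_jd (h2 : (2 : k) ≠ 0) (W : Submodule k (D1 → k)) : ∀ x ∈ jv_ann W, ∀ s z, La.Jd x s z →
    s ∈ jv_ann W ∧ z ∈ jv_ann W := fun _ hx _ _ h =>
  ⟨fun v hv => (h.ker (La.eqv h2) (hx v hv)).1, fun v hv => (h.ker (La.eqv h2) (hx v hv)).2⟩

/-- **NF3** -/
theorem jv_nofix (hp : p = 3) (hc : S.CK) (hT : S.JvNFT) : S.NoFix := fun y hy =>
  (Submodule.eq_bot_iff _).1 (hT _ (S.nt_stb_fix wrep_L) (S.jv_fix_br (by omega)) (S.jv_fix_jd (by omega))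
    fun _ hz hn => S.jv_nf_nil hp hc hz hn) y hy

/-- **ANN3** -/
theorem jv_ann3 (hp : p = 3) (hc : S.CK) (ht : S.PT (rho k)) (hT : S.JvNFT) {W : Submodule k (D1 → k)}
    (hW : S.Stb (rho k) W) (h0 : W ≠ ⊥) {z : chevE7.Idx → k} (hz : ∀ y ∈ W, del k z *ᵥ y = 0) : z = 0 := by
  have hp2 : p ≠ 2 := by omega
  have hA : ∃ x, ∃ y ∈ W, rho k (S.ψ x) *ᵥ y ≠ y := by
    by_contra h
    push Not at h
    exact h0 ((Submodule.eq_bot_iff _).2 fun y hy => S.nt_nofixV hp2 (S.jv_nofix hp hc hT) y fun x => h x y hy)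
  exact (Submodule.eq_bot_iff _).1 (hT _ (S.jv_stb_ann hp2 hW) (jv_ann_br W) (jv_ann_jd (S.nt_two hp2) W)
    fun _ hz hn => S.jv_ann_nil hp ht hW hA hz hn) z hz

end Sit

end Cfsg.Agent.E7P
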