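import Cfsg.Agent.E7P.Lie.Exp
import Cfsg.Agent.E7P.Nt.White

/-!
# S5932, task J1V: the kernel of an optimal set on the 56-dimensional module (helper82)

* `nform` : a homogeneous vector of non-zero level is conjugate under the Levi subgroup to a vector whose support consists of
  at most three weights with inner products `-1/2`;
* `j1v` : **J1V** (`p` odd), filtered form; `j1v_ker`; `lev_le` : the levels of `V` if the cube of `z` vanishes.
-/

set_option autoImplicit false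
set_option maxRecDepth 100000

namespace Cfsg.Agent.E7P.Jv

open Cfsg Cfsg.Lie Matrix Module
open Cfsg.Agent.H943.E7V.Block (D1 rho)
open Cfsg.Agent.R2.T1 Cfsg.Agent.E7P.Kf Cfsg.Agent.E7P.Br
open Cfsg.Agent.R2.PX (del p2 wr p2_comm p2_self p2_cases p2_eq_three p2_eq_neg_three)
open Cfsg.Agent.ChevalleyStructure.RootVec (rt)

universe u

variable {K : Type u} [Field K]

theorem chk_cor : ∀ r < 126, ∀ i < 7, (chevE7.coroot.getD r #[]).getD i 0 = rt chevE7 r i := by decide +kernel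

theorem bf_wv_rv (a : D1) {r : ℕ} (hr : r < 126) : bf (wv a) (rv r) = (wr r (nn a) : ℝ) := by
  rw [wv, bf_cv_rv _ hr, pc, wr, sum7]
  exact congrArg _ (Finset.sum_congr rfl fun i _ => by rw [chk_cor r hr i i.2]; rfl)

theorem p2_of_add {a b : D1} {r : ℕ} (hr : r < 126) (h : wv a = wv b + rv r) (c : D1) :
    p2 c a = p2 c b + 2 * wr r (nn c) := by
  have h1 := nt_bf_wv c a
  rw [h, map_add, mul_add, nt_bf_wv, bf_wv_rv c hr] at h1
  exact_mod_cast h1.symm

theorem wr_ge {r : ℕ} (hr : r < 126) (a : D1) : -1 ≤ wr r (nn a) := by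
  rcases R2.PX.wr_spec hr a with h | h | h <;> omega

theorem exists_of_wr {r : ℕ} (hr : r < 126) {a : D1} (h : wr r (nn a) < 0) :
    ∃ b c, mv r (nn a) = some (nn b, c) ∧ c * c = 1 := by
  rcases mv_spec hr a with h1 | ⟨b, c, h1, h2, -⟩
  · rcases R2.PX.wr_spec hr a with h2 | h2 | h2
    · exact absurd h1 h2.2.1
    · omega
    · omega
  · exact ⟨b, c, h1, h2⟩

theorem del_p2 {z : chevE7.Idx → K} {a b : D1} (h : del K z a b ≠ 0) : 1 ≤ p2 b a := by
  obtain ⟨i, -, e⟩ := del_wt h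
  rcases i with i | s
  · rw [ac_inl, cv_zero, add_zero] at e
    rw [wv_inj e, p2_self]
    norm_num
  · have h1 := p2_of_add s.2 e b
    have h2 := wr_ge s.2 b
    rw [p2_self] at h1
    omega

/-! ### the normal form -/

/-- the weight `a` is isolated in the support of `x` -/
def Iso (x : D1 → K) (a : D1) : Prop := x a ≠ 0 ∧ ∀ b, x b ≠ 0 → b = a ∨ p2 b a = -1

theorem p2_levi {a : D1} {y : Gh K} (hy : y ∈ Pl K (wv a) ⊓ Pl K (-wv a)) {i j : D1} (h : rho K y i j ≠ 0) :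
    p2 i a = p2 j a := by
  have h1 : bf (wv a) (wv j) ≤ bf (wv a) (wv i) := wrep_V.tri hy.1 i j h
  have h2 : bf (-wv a) (wv j) ≤ bf (-wv a) (wv i) := wrep_V.tri hy.2 i j h
  rw [map_neg, LinearMap.neg_apply, LinearMap.neg_apply] at h2
  have h3 := nt_bf_wv a i
  have h4 := nt_bf_wv a j
  rw [p2_comm i, p2_comm j]
  exact_mod_cast (show (p2 a i : ℝ) = p2 a j by linarith)

theorem Iso.levi {x : D1 → K} {a : D1} (h : Iso x a) {y : Gh K} (hy : y ∈ Pl K (wv a) ⊓ Pl K (-wv a)) :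
    Iso (rho K y *ᵥ x) a := by
  refine ⟨?_, fun b hb => ?_⟩
  · have h1 := h.1
    rw [← mulVec_inv (rho K) y x] at h1
    obtain ⟨j, h2, h3⟩ := exists_col h1
    have h4 := p2_levi (inv_mem hy) h2
    rw [p2_self] at h4
    rwa [p2_eq_three.1 h4.symm] at h3
  · obtain ⟨j, h2, h3⟩ := exists_col hb
    have h4 := p2_levi hy h2
    rcases h.2 j h3 with rfl | h5
    · rw [p2_self] at h4
      exact Or.inl (p2_eq_three.1 h4)
    · exact Or.inr (h4.trans h5)

theorem xs_levi {l : E} {r : ℕ} (hr : r < 126) (h : bf l (rv r) = 0) (t : K) : xs K r t ∈ Pl K l ⊓ Pl K (-l) :=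
  ⟨xs_mem_Pl hr h.ge t, xs_mem_Pl hr (by rw [map_neg, LinearMap.neg_apply, h, neg_zero]) t⟩

/-- **the normal form of a homogeneous vector** -/
theorem nform {β : E} {d : ℝ} (hd : d ≠ 0) {x : D1 → K} (hx : x ∈ Lv K wc β d) :
    ∃ g ∈ Pl K β ⊓ Pl K (-β), ∀ a, (rho K g *ᵥ x) a ≠ 0 → Iso (rho K g *ᵥ x) a := by
  classical
  let N : ↥(Pl K β ⊓ Pl K (-β)) → Finset D1 := fun g => Finset.univ.filter fun a => ¬ Iso (rho K g *ᵥ x) a
  let g := Function.argmin fun g => (N g).card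
  refine ⟨g, g.2, fun a ha => ?_⟩
  by_contra hI
  have hy : rho K g *ᵥ x ∈ Lv K wc β d := levi_Lv wrep_V g.2.1 g.2.2 hx
  set y := rho K g *ᵥ x with hyd
  obtain ⟨h, hP, h1, h2, -⟩ := R2.PX.Tr.clear
    ((Pl K β ⊓ Pl K (-β)) ⊓ ⨅ b : {b // Iso y b}, (Pl K (wv b.1) ⊓ Pl K (-wv b.1))) a ha
    (Finset.univ.filter fun n => p2 n a = 1 ∧ bf β (wv n) = d ∧ ∀ b, Iso y b → p2 n b = -1) (by
      intro n hn
      obtain ⟨-, e1, e2, e3⟩ := Finset.mem_filter.1 hn
      refine ⟨e1, fun r hr c hm t => ?_⟩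
      have e : wv n = wv a + rv r := by rw [wv, wc_add hr hm, cv_add]; rfl
      refine ⟨xs_levi hr ?_ t, Subgroup.mem_iInf.2 fun b => xs_levi hr ?_ t⟩
      · have h3 : bf β (wv a) = d := hy a ha
        rw [e, map_add, h3] at e2
        linarith
      · have h3 := p2_of_add hr e b.1
        have h4 : p2 a b.1 = -1 := (b.2.2 a ha).resolve_left fun h => hI (h ▸ b.2)
        rw [p2_comm _ n, p2_comm _ a, e3 _ b.2, h4] at h3
        rw [bf_wv_rv _ hr]
        exact_mod_cast (show wr r (nn b.1) = 0 by omega))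
  rw [V_apply] at h1
  simp only [V_apply] at h2
  have h3 : ∀ b, Iso y b → Iso (rho K h *ᵥ y) b := fun b hb => hb.levi (Subgroup.mem_iInf.1 hP.2 ⟨b, hb⟩)
  have h4 : rho K h *ᵥ y ∈ Lv K wc β d := levi_Lv wrep_V hP.1.1 hP.1.2 hy
  have h5 : Iso (rho K h *ᵥ y) a := by
    refine ⟨by rw [h1]; exact ha, fun n hn => ?_⟩
    rcases p2_cases n a with h6 | h6 | h6 | h6
    · exact Or.inl (p2_eq_three.1 h6)
    · refine absurd (h2 n (Finset.mem_filter.2 ⟨Finset.mem_univ _, h6, h4 n hn, fun b hb => ?_⟩)) hn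
      refine ((h3 b hb).2 n hn).resolve_left ?_
      rintro rfl
      have h7 : p2 a n = -1 := (hb.2 a ha).resolve_left fun h => hI (h ▸ hb)
      rw [p2_comm] at h7
      omega
    · exact Or.inr h6
    · exfalso
      have h7 : bf β (wv a) = d := hy a ha
      have h8 : bf β (wv n) = d := h4 n hn
      rw [p2_eq_neg_three.1 h6, wv_op, map_neg, h8] at h7
      exact hd (by linarith)
  have e : rho K (h * g) *ᵥ x = rho K h *ᵥ y := mulVec_mul _ _ _ _
  have h6 : N ⟨h * g, mul_mem hP.1 g.2⟩ ⊂ N g := by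
    refine (Finset.ssubset_iff_of_subset fun b hb => ?_).2 ⟨a, Finset.mem_filter.2 ⟨Finset.mem_univ _, hI⟩, fun hb => ?_⟩
    · exact Finset.mem_filter.2 ⟨Finset.mem_univ _, fun h7 => (Finset.mem_filter.1 hb).2 (e ▸ h3 b h7)⟩
    · exact (Finset.mem_filter.1 hb).2 (e ▸ h5)
  exact Function.not_lt_argmin (fun g => (N g).card) _ (Finset.card_lt_card h6)

/-- four weights with inner products `-1/2` have the sum zero -/
theorem four_sum {a b c d : D1} (h1 : p2 a b = -1) (h2 : p2 a c = -1) (h3 : p2 a d = -1) (h4 : p2 b c = -1)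
    (h5 : p2 b d = -1) (h6 : p2 c d = -1) : wv a + wv b + wv c + wv d = 0 := by
  by_contra h
  have h7 := bf_pd.pos _ h
  have e : ∀ x y, bf (wv x) (wv y) = (p2 x y : ℝ) / 2 := fun x y => by
    rw [← nt_bf_wv]
    ring
  simp only [map_add, LinearMap.add_apply, e, p2_self, p2_comm b a, p2_comm c a, p2_comm d a, p2_comm c b, p2_comm d b,
    p2_comm d c, h1, h2, h3, h4, h5, h6] at h7
  norm_num at h7

theorem del_symm (z : chevE7.Idx → K) (a b : D1) :
    (ep a : K) * del K z (op a) b = (ep b : K) * del K z (op b) a := by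
  have h : ∀ a b, sf K (bs K a) (del K z *ᵥ bs K b) = (ep a : K) * del K z (op a) b := fun a b => by
    rw [sf_single, bs, mulVec_single_one, col_apply]
  rw [← h, ← h, sf_swap (bs K b), R2.PX.sf_del, neg_neg]

/-- **the roots of the annihilator of a normal form** -/
theorem supp_nonneg (h2 : (2 : K) ≠ 0) {β : E} {d : ℝ} (hd : d ≠ 0) {x : D1 → K} (hx : x ∈ Lv K wc β d)
    (hI : ∀ a, x a ≠ 0 → Iso x a) {S : Finset D1} (hS : ∀ a, a ∈ S ↔ x a ≠ 0) {z : chevE7.Idx → K} (hz : del K z *ᵥ x = 0)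
    {q : chevE7.Idx} (hq : z q ≠ 0) : 0 ≤ bf (∑ a ∈ S, wv a) (cv (ac q)) := by
  classical
  rcases q with q | r
  · rw [ac_inl, cv_zero, map_zero]
  have hr : r.val < 126 := r.2
  have e0 : bf (∑ a ∈ S, wv a) (cv (ac (Sum.inr r))) = ((∑ a ∈ S, wr r (nn a) : ℤ) : ℝ) := by
    rw [map_sum, LinearMap.sum_apply, Int.cast_sum]
    exact Finset.sum_congr rfl fun a _ => bf_wv_rv a hr
  rw [e0]
  have hp : ∀ {a b}, a ∈ S → b ∈ S → a ≠ b → p2 a b = -1 := fun {a b} ha hb hab =>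
    ((hI b ((hS b).1 hb)).2 a ((hS a).1 ha)).resolve_left hab
  by_contra hc
  have h0 : ∑ a ∈ S, wr r (nn a) < 0 := by exact_mod_cast not_le.1 hc
  obtain ⟨i, hi, hi'⟩ : ∃ i ∈ S, wr r (nn i) < 0 := by
    by_contra h1
    push Not at h1
    exact absurd (Finset.sum_nonneg h1) (not_le.2 h0)
  obtain ⟨b, c, hm, hcc⟩ := exists_of_wr hr hi'
  have e : wv b = wv i + rv r := by rw [wv, wc_add hr hm, cv_add]; rfl
  have hb : del K z b i ≠ 0 := by
    rw [Mu.del_entry z hr hm]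
    exact mul_ne_zero hq (cast_ne hcc)
  obtain ⟨j, hji, hj⟩ : ∃ j, j ≠ i ∧ del K z b j * x j ≠ 0 := by
    by_contra h1
    push Not at h1
    have h3 : ∑ j, del K z b j * x j = 0 := congrFun hz b
    rw [Finset.sum_eq_single i (fun j _ hj => h1 j hj) (fun h => absurd (Finset.mem_univ _) h)] at h3
    exact mul_ne_zero hb ((hS i).1 hi) h3
  have hjS : j ∈ S := (hS j).2 (right_ne_zero_of_mul hj)
  have hj' : 1 ≤ wr r (nn j) := by
    have h3 := del_p2 (left_ne_zero_of_mul hj)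
    have h4 := p2_of_add hr e j
    rw [hp hjS hi hji] at h4
    omega
  obtain ⟨k, hk, hk'⟩ : ∃ k ∈ (S.erase i).erase j, wr r (nn k) < 0 := by
    by_contra h1
    push Not at h1
    have h3 := Finset.sum_nonneg h1
    rw [← Finset.add_sum_erase S _ hi, ← Finset.add_sum_erase _ _ (Finset.mem_erase.2 ⟨hji, hjS⟩)] at h0
    have := wr_ge hr i
    omega
  obtain ⟨hkj, hk⟩ := Finset.mem_erase.1 hk
  obtain ⟨hki, hk⟩ := Finset.mem_erase.1 hk
  have hx3 : x = x i • bs K i + x j • bs K j + x k • bs K k := by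
    funext l
    simp only [Pi.add_apply, Pi.smul_apply, smul_eq_mul]
    by_cases h1 : l = i
    · rw [h1, R2.PX.bs_self, R2.PX.bs_ne hji.symm, R2.PX.bs_ne hki.symm]
      ring
    by_cases h3 : l = j
    · rw [h3, R2.PX.bs_self, R2.PX.bs_ne hji, R2.PX.bs_ne hkj.symm]
      ring
    by_cases h4 : l = k
    · rw [h4, R2.PX.bs_self, R2.PX.bs_ne hki, R2.PX.bs_ne hkj]
      ring
    rw [R2.PX.bs_ne h1, R2.PX.bs_ne h3, R2.PX.bs_ne h4, mul_zero, mul_zero, mul_zero, add_zero, add_zero]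
    by_contra h5
    have hl := (hS l).2 h5
    have h6 := congrArg (bf β) (four_sum (hp hi hjS hji.symm) (hp hi hk hki.symm) (hp hi hl (Ne.symm h1))
      (hp hjS hk hkj.symm) (hp hjS hl (Ne.symm h3)) (hp hk hl (Ne.symm h4)))
    have h7 : ∀ a ∈ S, bf β (wv a) = d := fun a ha => hx a ((hS a).1 ha)
    rw [map_add, map_add, map_add, h7 i hi, h7 j hjS, h7 k hk, h7 l hl, map_zero] at h6
    exact hd (by linarith)
  have hrow : ∀ a, x i * ((ep a : K) * del K z (op a) i) + x j * ((ep a : K) * del K z (op a) j) +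
      x k * ((ep a : K) * del K z (op a) k) = 0 := fun a => by
    have h1 := congrFun hz (op a)
    rw [hx3, mulVec_add, mulVec_add, mulVec_smul, mulVec_smul, mulVec_smul] at h1
    simp only [bs, mulVec_single_one, Pi.add_apply, Pi.smul_apply, smul_eq_mul, col_apply, Pi.zero_apply] at h1
    linear_combination (ep a : K) * h1
  have hdiag : ∀ a, del K z (op a) a = 0 := fun a => by
    by_contra h1
    have h3 := del_p2 h1
    rw [p2_eq_neg_three.2 rfl] at h3
    omega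
  have hbk : b = op k := by
    have h3 := p2_of_add hr e k
    have h4 := wr_ge hr k
    rw [hp hk hi hki] at h3
    exact p2_eq_neg_three.1 (by omega)
  have r1 := hrow i
  have r2 := hrow j
  have r3 := hrow k
  rw [hdiag, del_symm z i j, del_symm z i k] at r1
  rw [hdiag, del_symm z j k] at r2
  rw [hdiag] at r3
  have h3 : 2 * (x i * x k) * ((ep k : K) * del K z (op k) i) = 0 := by
    linear_combination x i * r1 - x j * r2 + x k * r3
  rw [← hbk] at h3
  exact mul_ne_zero (mul_ne_zero h2 (mul_ne_zero ((hS i).1 hi) ((hS k).1 hk))) (mul_ne_zero (cast_ne (ep_sq k)) hb) h3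

/-! ### J1V -/

theorem del_rho (h2 : (2 : K) ≠ 0) (g : Gh K) (z : chevE7.Idx → K) (v : D1 → K) :
    del K (adM K g *ᵥ z) *ᵥ (rho K g *ᵥ v) = rho K g *ᵥ (del K z *ᵥ v) := by
  rw [mulVec_mulVec, ← R2.PX.del_equi h2, mulVec_mulVec]

/-- homogeneous vectors of negative level -/
theorem j1v0 (h2 : (2 : K) ≠ 0) {X : Set (chevE7.Idx → K)} {β : E} (ho : Opt bf (St ac (adM K) X) 1 β) {d : ℝ}
    (hd : d < 0) {v : D1 → K} (hv : v ∈ Lv K wc β d) (h0 : ∀ z ∈ X, del K z *ᵥ v = 0) : v = 0 := by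
  classical
  obtain ⟨g, hg, hI⟩ := nform hd.ne hv
  have o : Opt bf (St ac (adM K) X) (1 * g⁻¹) β := ho.move bf_pd (St_finite _) (St_nonempty (exists_ne_of_opt ho) _)
    (wrep_L.St_le (inv_mem hg.1) 1 ho.1.2)
  have hy : rho K g *ᵥ v ∈ Lv K wc β d := levi_Lv wrep_V hg.1 hg.2 hv
  have h1 : ∀ s ∈ St ac (adM K) X (1 * g⁻¹),
      0 ≤ bf (∑ a ∈ Finset.univ.filter fun a => (rho K g *ᵥ v) a ≠ 0, wv a) s := by
    rintro _ ⟨q, rfl, z, hz, hq⟩
    rw [one_mul, inv_inv] at hq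
    exact supp_nonneg h2 hd.ne hy hI (fun a => by rw [Finset.mem_filter]; exact and_iff_right (Finset.mem_univ a))
      (by rw [del_rho h2, h0 z hz, mulVec_zero]) hq
  have h3 := le_of_hull h1 o.1.1
  by_contra hne
  have h4 : rho K g *ᵥ v ≠ 0 := fun h => hne (by rw [← mulVec_inv (rho K) g v, h, mulVec_zero])
  obtain ⟨a, ha⟩ := Function.ne_iff.1 h4
  rw [bf_symm, map_sum] at h3
  exact absurd h3 (not_le.2 (Finset.sum_neg (fun b hb => (hy b (Finset.mem_filter.1 hb).2).trans_lt hd)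
    ⟨a, Finset.mem_filter.2 ⟨Finset.mem_univ _, ha⟩⟩))

section
variable {β : E} {d e : ℝ} {z : chevE7.Idx → K} {v : D1 → K}

theorem del_Ge (hz : z ∈ Ge K ac β d) (hv : v ∈ Ge K wc β e) : del K z *ᵥ v ∈ Ge K wc β (e + d) :=
  MGe_mulVec (del_MGe.2 hz) hv

theorem del_Lv (hz : z ∈ Lv K ac β d) (hv : v ∈ Lv K wc β e) : del K z *ᵥ v ∈ Lv K wc β (e + d) :=
  Lv_of_Ge (del_Ge (Lv_le_Ge hz) (Lv_le_Ge hv))
    (by rw [neg_add]; exact del_Ge (Lv_le_Ge (mem_Lv_neg.2 hz)) (Lv_le_Ge (mem_Lv_neg.2 hv)))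

/-- the leading term of the action of the Lie algebra -/
theorem lv_del (hz : z ∈ Ge K ac β d) (hv : v ∈ Ge K wc β e) :
    lv wc β (e + d) (del K z *ᵥ v) = del K (lv ac β d z) *ᵥ lv wc β e v := by
  rw [← lv_of_Lv (del_Lv (lv_mem z) (lv_mem v))]
  refine lv_eq_of_sub ?_
  have h : del K z *ᵥ v - del K (lv ac β d z) *ᵥ lv wc β e v =
      del K (z - lv ac β d z) *ᵥ v + del K (lv ac β d z) *ᵥ (v - lv wc β e v) := by
    rw [map_sub, sub_mulVec, mulVec_sub]
    abel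
  rw [h]
  exact add_mem (MGt_mulVec (del_MGt.2 (sub_lv_mem hz)) hv)
    (mulVec_Gt (del_MGe.2 (Lv_le_Ge (lv_mem z))) (sub_lv_mem hv))

end

/-- **J1V** -/
theorem j1v [Infinite K] (h2 : (2 : K) ≠ 0) {X : Set (chevE7.Idx → K)} {g : Gh K} {β : E}
    (ho : Opt bf (St ac (adM K) X) g β) (hβ : Dom β) {v : D1 → K} {e : ℝ} (he : e ≤ bf β β)
    (h : ∀ z ∈ X, rho K g⁻¹ *ᵥ (del K z *ᵥ v) ∈ Ge K wc β e) : rho K g⁻¹ *ᵥ v ∈ Ge K wc β (e - bf β β) := by
  refine mem_Ge_of_step fun d hd hv => mem_Gt_of_lv hv (j1v0 h2 (lead wrep_L ho hβ) (d := d) (by linarith) (lv_mem _) ?_)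
  rintro _ ⟨z, hz, rfl⟩
  rw [← lv_del (Opt_Ge ho hz) hv, del_rho h2]
  exact lv_of_Gt (Ge_le_Gt (by linarith) (h z hz))

/-- **J1V** for the kernel -/
theorem j1v_ker [Infinite K] (h2 : (2 : K) ≠ 0) {X : Set (chevE7.Idx → K)} {g : Gh K} {β : E}
    (ho : Opt bf (St ac (adM K) X) g β) (hβ : Dom β) {v : D1 → K} (h : ∀ z ∈ X, del K z *ᵥ v = 0) :
    rho K g⁻¹ *ᵥ v ∈ Ge K wc β 0 := by
  have h1 := j1v h2 ho hβ (v := v) le_rfl fun z hz => by rw [h z hz, mulVec_zero]; exact zero_mem _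
  rwa [sub_self] at h1

/-- the levels of `V` for an element of nilpotency index `m + 1` -/
theorem lev_le [Infinite K] (h2 : (2 : K) ≠ 0) {z : chevE7.Idx → K} {g : Gh K} {β : E}
    (ho : Opt bf (St ac (adM K) {z}) g β) (hβ : Dom β) {m : ℕ} (hm : del K z ^ (m + 1) = 0) (a : D1) :
    bf β (wv a) ≤ m * bf β β := by
  have hn := bf_pd.nonneg β
  have key : ∀ (j : ℕ) (v : D1 → K), del K z ^ (j + 1) *ᵥ v = 0 → rho K g⁻¹ *ᵥ v ∈ Ge K wc β (-(j * bf β β)) := by
    intro j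
    induction j with
    | zero =>
      intro v hv
      rw [Nat.cast_zero, zero_mul, neg_zero]
      exact j1v_ker h2 ho hβ fun y hy => by rw [hy, ← hv, zero_add, pow_one]
    | succ j ih =>
      intro v hv
      rw [pow_succ, ← mulVec_mulVec] at hv
      have h1 := j1v h2 ho hβ (v := v) (e := -(j * bf β β))
        (by have := mul_nonneg (Nat.cast_nonneg (α := ℝ) j) hn; linarith) fun y hy => by rw [hy]; exact ih _ hv
      rwa [show -(j * bf β β) - bf β β = -(((j + 1 : ℕ) : ℝ) * bf β β) by push_cast; ring] at h1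
  have h1 := key m (rho K g *ᵥ bs K (op a)) (by rw [hm, zero_mulVec]) (op a) (by
    rw [mulVec_inv, R2.PX.bs_self]
    exact one_ne_zero)
  have h3 : bf β (cv (wc (op a))) = - bf β (wv a) := by rw [← map_neg, ← wv_op]; rfl
  rw [h3] at h1
  linarith

end Cfsg.Agent.E7P.Jv
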